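import Cfsg.Agent.H924.M23.Fun

/-!
# (M,23) of S4929: the enumeration of the degrees, in 16 pieces (helper892, from `H924/M23/Run.lean`)
-/

set_option autoImplicit false
set_option maxRecDepth 100000

namespace Cfsg.Agent.H892.M23

open Cfsg.Agent.H924.M23

/-- the enumeration over the exponents of the primes up to 31 -/
def G (x : ℕ) : Bool := loop 31 (loop 29 (loop 23 (loop 19 (loop 17 (loop 13 (loop 11
    (loop 7 (loop 3 tail 14) 5) 1) 3) 1) 1) 1) 1) 1 x

theorem F_eq (x : ℕ) (k : ℕ → Bool) : F x k = k x := by cases x <;> rfl

/-- two exponents -/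
theorem loop_one {p : ℕ} {f : ℕ → Bool} {x : ℕ} (h0 : f x = true) (h1 : f (x * p) = true) : loop p f 1 x = true := by
  unfold loop
  simp only [F_eq]
  show B (Nat.ble x nD) (B (f x) (B (Nat.ble (Nat.mul x p) nD) (f (Nat.mul x p)) true) false) true = true
  have h1' : f (Nat.mul x p) = true := h1
  rw [h0, h1']
  cases Nat.ble x nD <;> cases Nat.ble (Nat.mul x p) nD <;> rfl

theorem p0000 : G 390625 = true := by decide +kernel
theorem p0001 : G 16015625 = true := by decide +kernel
theorem p0010 : G 18359375 = true := by decide +kernel
theorem p0011 : G 752734375 = true := by decide +kernel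
theorem p0100 : G 23046875 = true := by decide +kernel
theorem p0101 : G 944921875 = true := by decide +kernel
theorem p0110 : G 1083203125 = true := by decide +kernel
theorem p0111 : G 44411328125 = true := by decide +kernel
theorem p1000 : G 27734375 = true := by decide +kernel
theorem p1001 : G 1137109375 = true := by decide +kernel
theorem p1010 : G 1303515625 = true := by decide +kernel
theorem p1011 : G 53444140625 = true := by decide +kernel
theorem p1100 : G 1636328125 = true := by decide +kernel
theorem p1101 : G 67089453125 = true := by decide +kernel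
theorem p1110 : G 76907421875 = true := by decide +kernel
theorem p1111 : G 3153204296875 = true := by decide +kernel

theorem q000 : loop 41 G 1 390625 = true := loop_one p0000 p0001
theorem q001 : loop 41 G 1 18359375 = true := loop_one p0010 p0011
theorem q010 : loop 41 G 1 23046875 = true := loop_one p0100 p0101
theorem q011 : loop 41 G 1 1083203125 = true := loop_one p0110 p0111
theorem q100 : loop 41 G 1 27734375 = true := loop_one p1000 p1001
theorem q101 : loop 41 G 1 1303515625 = true := loop_one p1010 p1011
theorem q110 : loop 41 G 1 1636328125 = true := loop_one p1100 p1101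
theorem q111 : loop 41 G 1 76907421875 = true := loop_one p1110 p1111
theorem r00 : loop 47 (loop 41 G 1) 1 390625 = true := loop_one q000 q001
theorem r01 : loop 47 (loop 41 G 1) 1 23046875 = true := loop_one q010 q011
theorem r10 : loop 47 (loop 41 G 1) 1 27734375 = true := loop_one q100 q101
theorem r11 : loop 47 (loop 41 G 1) 1 1636328125 = true := loop_one q110 q111
theorem s0 : loop 59 (loop 47 (loop 41 G 1) 1) 1 390625 = true := loop_one r00 r01
theorem s1 : loop 59 (loop 47 (loop 41 G 1) 1) 1 27734375 = true := loop_one r10 r11

/-- the enumeration of all divisors -/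
theorem run_all : loop 71 (loop 59 (loop 47 (loop 41 (loop 31 (loop 29 (loop 23 (loop 19 (loop 17 (loop 13 (loop 11
    (loop 7 (loop 3 tail 14) 5) 1) 3) 1) 1) 1) 1) 1) 1) 1) 1) 1 390625 = true :=
  loop_one s0 s1

end Cfsg.Agent.H892.M23
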